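import Cfsg.Agent.H951.K547.Rk
import Cfsg.Agent.H753.K547.Split
import Cfsg.Agent.H269.K547.Tool
import Cfsg.Agent.H38.K547.Tool
import Cfsg.Agent.Lib.FrattiniPGroup

/-!
# S4547: the tools for `Rk` and `D3` (task K547-TOOL1, helper513)

* `Rk.mono`, `Rk.of_surj`, `Rk.congr`, `Rk.prod`, `rk_iff`, `Rk.of_sq`, `Rk.of_split`, `Rk.of_swap` (wreath products);
* `D3.of_sylow`, `D3.congr`, `D3.of_index`, `D3.to_index`, `D3.index_iff`, `D3.of_surj`, `D3.of_map`, `D3.of_split`,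
  `D3.of_elementary`, `D3.of_elementary_quot`.
-/

set_option autoImplicit false

namespace Cfsg.Agent.H821.K547

open Cfsg
open scoped commutatorElement

universe u v

/-! ### `Rk` -/

theorem Rk.of_surj {n : ℕ} {P : Type u} {P' : Type v} [Group P] [Group P'] (f : P →* P')
    (hf : Function.Surjective f) (h : Rk n P') : Rk n P := by
  obtain ⟨g, hg⟩ := h
  exact ⟨g.comp f, hg.comp hf⟩

theorem Rk.congr {n : ℕ} {P : Type u} {P' : Type v} [Group P] [Group P'] (e : P ≃* P') (h : Rk n P') : Rk n P :=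
  Rk.of_surj e.toMonoidHom e.surjective h

theorem Rk.mono {m n : ℕ} {P : Type u} [Group P] [Finite P] (h : n ≤ m) (hP : Rk m P) : Rk n P :=
  H951.K547.rk_mono h hP

/-- all squares of `P` lie in `N` and `2 ^ n ≤ |P : N|` -/
theorem Rk.of_sq {n : ℕ} {P : Type u} [Group P] [Finite P] {N : Subgroup P} (hN : ∀ x : P, x ^ 2 ∈ N)
    (h : 2 ^ n ≤ N.index) : Rk n P :=
  H951.K547.rk_of_sq hN h

theorem Rk.prod {m n : ℕ} {P : Type u} {P' : Type v} [Group P] [Group P'] [Finite P] [Finite P'] (h : Rk m P)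
    (h' : Rk n P') : Rk (m + n) (P × P') := by
  obtain ⟨N, hN, hi⟩ := H951.K547.exists_sq_of_rk h
  obtain ⟨N', hN', hi'⟩ := H951.K547.exists_sq_of_rk h'
  refine Rk.of_sq (N := N.prod N') (fun x => ⟨hN x.1, hN' x.2⟩) ?_
  rw [Subgroup.index_prod, hi, hi', pow_add]

theorem rk_iff {n : ℕ} {P : Type u} [Group P] [Finite P] (hP : IsPGroup 2 P) : Rk n P ↔ 2 ^ n ≤ (frattini P).index := by
  have : Fact (Nat.Prime 2) := ⟨Nat.prime_two⟩
  constructor
  · intro h
    obtain ⟨N, hN, hi⟩ := H951.K547.exists_sq_of_rk h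
    have hn : N.Normal := H951.K547.normal_of_sq hN
    have hle : frattini P ≤ N := by
      refine Lib.FrattiniPGroup.frattini_le (p := 2) N (fun x y => ?_) hN
      have h1 : ⁅x, y⁆ = (x * y) ^ 2 * (y⁻¹ * x ^ 2 * y)⁻¹ * (y ^ 2)⁻¹ := by
        rw [commutatorElement_def, pow_two, pow_two, pow_two]
        group
      rw [h1]
      refine N.mul_mem (N.mul_mem (hN _) (N.inv_mem ?_)) (N.inv_mem (hN _))
      have h2 := hn.conj_mem _ (hN x) y⁻¹
      rwa [inv_inv] at h2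
    rw [← hi]
    exact Nat.le_of_dvd (Nat.pos_of_ne_zero Subgroup.index_ne_zero_of_finite) (Subgroup.index_dvd_of_le hle)
  · intro h
    exact Rk.of_sq (fun x => Lib.FrattiniPGroup.pow_mem_frattini hP x) h

theorem Rk.of_split {P : Type u} [Group P] [Finite P] (hP : IsPGroup 2 P) {n : ℕ} (V K : Subgroup P) [V.Normal]
    (hV : V ≠ ⊥) (hc : Subgroup.IsComplement' V K) (hK : Rk n K) : Rk (n + 1) P :=
  H753.K547.rk_of_split hP V K hV hc hK

/-- **Wreath products.**  `A × B ≤ P` of index two, `t` interchanges `A` and `B`. -/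
theorem Rk.of_swap {n : ℕ} {P : Type u} [Group P] [Finite P] (A B : Subgroup P) (hAB : ∀ a ∈ A, ∀ b ∈ B, a * b = b * a)
    (hd : Disjoint A B) (hi : (A ⊔ B).index = 2) (t : P) (hA : ∀ a ∈ A, t * a * t⁻¹ ∈ B)
    (hB : ∀ b ∈ B, t * b * t⁻¹ ∈ A) (hn : Rk n A) : Rk (n + 1) P := by
  obtain ⟨f, hf⟩ := hn
  -- `B = t A t⁻¹`
  have hcard : ∀ X Y : Subgroup P, (∀ a ∈ X, t * a * t⁻¹ ∈ Y) → Nat.card X ≤ Nat.card Y := by
    intro X Y h
    refine Nat.card_le_card_of_injective (fun x : X => (⟨t * x * t⁻¹, h x x.2⟩ : Y)) ?_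
    intro x y hxy
    have h1 := congrArg Subtype.val hxy
    simp only at h1
    exact Subtype.ext (mul_left_cancel (mul_right_cancel h1))
  have hmap : A.map (MulAut.conj t).toMonoidHom = B := by
    apply Subgroup.eq_of_le_of_card_ge
    · rintro _ ⟨a, ha, rfl⟩
      exact hA a ha
    · rw [Subgroup.card_map_of_injective (MulAut.conj t).injective]
      exact hcard B A hB
  have hB' : ∀ b ∈ B, ∃ a ∈ A, b = t * a * t⁻¹ := by
    intro b hb
    rw [← hmap] at hb
    obtain ⟨a, ha, rfl⟩ := hb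
    exact ⟨a, ha, rfl⟩
  let ψ : A × A →* P := MonoidHom.noncommCoprod A.subtype ((MulAut.conj t).toMonoidHom.comp A.subtype)
    (fun a b => hAB a a.2 _ (hA b b.2))
  have hψ : ∀ x : A × A, ψ x = x.1 * (t * x.2 * t⁻¹) := fun x => rfl
  have huniq : ∀ a ∈ A, ∀ a' ∈ A, ∀ b ∈ B, ∀ b' ∈ B, a * b = a' * b' → a = a' ∧ b = b' := by
    intro a ha a' ha' b hb b' hb' h
    have h1 : a'⁻¹ * a = b' * b⁻¹ := by
      rw [inv_mul_eq_iff_eq_mul, ← mul_assoc, ← h, mul_assoc, mul_inv_cancel, mul_one]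
    have h2 : a'⁻¹ * a = 1 :=
      Subgroup.disjoint_def.1 hd (A.mul_mem (A.inv_mem ha') ha) (h1 ▸ B.mul_mem hb' (B.inv_mem hb))
    refine ⟨(inv_mul_eq_one.1 h2).symm, ?_⟩
    rw [h1] at h2
    exact (mul_inv_eq_one.1 h2).symm
  have hinj : Function.Injective ψ := by
    intro x y h
    rw [hψ, hψ] at h
    obtain ⟨h1, h2⟩ := huniq _ x.1.2 _ y.1.2 _ (hA _ x.2.2) _ (hA _ y.2.2) h
    exact Prod.ext (Subtype.ext h1) (Subtype.ext (mul_left_cancel (mul_right_cancel h2)))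
  have hrange : ψ.range = A ⊔ B := by
    apply le_antisymm
    · rintro _ ⟨x, rfl⟩
      rw [hψ]
      exact Subgroup.mul_mem _ (Subgroup.mem_sup_left x.1.2) (Subgroup.mem_sup_right (hA _ x.2.2))
    · rw [sup_le_iff]
      constructor
      · intro a ha
        exact ⟨(⟨a, ha⟩, 1), by rw [hψ]; simp⟩
      · intro b hb
        obtain ⟨a, ha, rfl⟩ := hB' b hb
        exact ⟨(1, ⟨a, ha⟩), by rw [hψ]; simp⟩
  let φ : A × A →* Multiplicative (Fin n → ZMod 2) := MonoidHom.coprod f f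
  have hφ : ∀ x, φ x = f x.1 * f x.2 := fun x => rfl
  have hsqv : ∀ v : Multiplicative (Fin n → ZMod 2), v * v = 1 := by
    intro v
    apply Multiplicative.toAdd.injective
    funext i
    have h2 : ∀ a : ZMod 2, a + a = 0 := by decide
    exact h2 _
  have hφs : Function.Surjective φ := fun v => by
    obtain ⟨a, ha⟩ := hf v
    exact ⟨(a, 1), by rw [hφ, map_one, mul_one, ha]⟩
  -- the kernel
  refine Rk.of_sq (N := φ.ker.map ψ) ?_ ?_
  · intro x
    by_cases hx : x ∈ A ⊔ B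
    · rw [← hrange] at hx
      obtain ⟨y, rfl⟩ := hx
      refine ⟨y ^ 2, ?_, map_pow _ _ _⟩
      show φ (y ^ 2) = 1
      rw [map_pow, pow_two, hsqv]
    · have hx2 : x ^ 2 ∈ A ⊔ B := by
        rw [pow_two, Subgroup.mul_mem_iff_of_index_two hi]
      rw [← hrange] at hx2
      obtain ⟨y, hy⟩ := hx2
      refine ⟨y, ?_, hy⟩
      show φ y = 1
      rw [hψ] at hy
      have ht : t ∉ A ⊔ B ∨ A = ⊥ := by
        by_contra hcon
        push Not at hcon
        obtain ⟨h1, h2⟩ := hcon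
        apply h2
        rw [← hrange] at h1
        obtain ⟨z, hz⟩ := h1
        rw [hψ] at hz
        rw [Subgroup.eq_bot_iff_forall]
        intro a ha
        have h3 := hA a ha
        rw [← hz] at h3
        have h4 : (z.1 : P) * (t * z.2 * t⁻¹) * a * ((z.1 : P) * (t * z.2 * t⁻¹))⁻¹ = z.1 * a * (z.1 : P)⁻¹ := by
          have h5 := hAB a ha _ (hA _ z.2.2)
          rw [mul_inv_rev, mul_assoc (z.1 : P), ← h5]
          group
        rw [h4] at h3
        have h6 := Subgroup.disjoint_def.1 hd (A.mul_mem (A.mul_mem z.1.2 ha) (A.inv_mem z.1.2)) h3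
        rw [mul_inv_eq_one] at h6
        exact mul_left_cancel (h6.trans (mul_one _).symm)
      rcases ht with ht | ht
      · have hm : t⁻¹ * x ∈ A ⊔ B := by
          rw [Subgroup.mul_mem_iff_of_index_two hi, Subgroup.inv_mem_iff]
          exact iff_of_false ht hx
        rw [← hrange] at hm
        obtain ⟨z, hz⟩ := hm
        rw [hψ] at hz
        have hx' : x = t * (z.1 * (t * z.2 * t⁻¹)) := by rw [hz]; group
        -- `x` on `A`
        have hxa : ∀ a ∈ A, x * a * x⁻¹ = t * (z.1 * a * (z.1 : P)⁻¹) * t⁻¹ := by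
          intro a ha
          have h5 := hAB a ha _ (hA _ z.2.2)
          rw [hx', mul_inv_rev, mul_inv_rev]
          rw [show t * (z.1 * (t * z.2 * t⁻¹)) * a * ((t * (z.2 : P) * t⁻¹)⁻¹ * (z.1 : P)⁻¹ * t⁻¹) =
            t * (z.1 * ((t * z.2 * t⁻¹) * a) * (t * (z.2 : P) * t⁻¹)⁻¹ * (z.1 : P)⁻¹) * t⁻¹ by group, ← h5]
          group
        have hxb : ∀ b ∈ B, x * b * x⁻¹ ∈ A := by
          intro b hb
          have h5 := hAB _ z.1.2 (t * z.2 * t⁻¹ * b * (t * z.2 * t⁻¹)⁻¹)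
            (B.mul_mem (B.mul_mem (hA _ z.2.2) hb) (B.inv_mem (hA _ z.2.2)))
          have h6 : x * b * x⁻¹ = t * (t * z.2 * t⁻¹ * b * (t * z.2 * t⁻¹)⁻¹) * t⁻¹ := by
            rw [hx', mul_inv_rev, mul_inv_rev]
            rw [show t * (z.1 * (t * z.2 * t⁻¹)) * b * ((t * (z.2 : P) * t⁻¹)⁻¹ * (z.1 : P)⁻¹ * t⁻¹) =
              t * (z.1 * (t * z.2 * t⁻¹ * b * (t * z.2 * t⁻¹)⁻¹) * (z.1 : P)⁻¹) * t⁻¹ by group, h5]
            group
          rw [h6]
          exact hB _ (B.mul_mem (B.mul_mem (hA _ z.2.2) hb) (B.inv_mem (hA _ z.2.2)))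
        have hcomm : (x * (y.1 : P) * x⁻¹) * (x * (t * y.2 * t⁻¹) * x⁻¹) = (y.1 : P) * (t * y.2 * t⁻¹) := by
          have h7 : x * ((y.1 : P) * (t * y.2 * t⁻¹)) * x⁻¹ = (y.1 : P) * (t * y.2 * t⁻¹) := by
            rw [hy]
            group
          rw [← h7]
          group
        rw [hxa _ y.1.2] at hcomm
        have hmB : t * (z.1 * y.1 * (z.1 : P)⁻¹) * t⁻¹ ∈ B := hA _ (A.mul_mem (A.mul_mem z.1.2 y.1.2) (A.inv_mem z.1.2))
        have hmA : x * (t * y.2 * t⁻¹) * x⁻¹ ∈ A := hxb _ (hA _ y.2.2)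
        rw [← hAB _ hmA _ hmB] at hcomm
        obtain ⟨-, h8⟩ := huniq _ hmA _ y.1.2 _ hmB _ (hA _ y.2.2) hcomm
        have h9 : (z.1 : P) * y.1 * (z.1 : P)⁻¹ = y.2 := mul_left_cancel (mul_right_cancel h8)
        have h10 : y.2 = z.1 * y.1 * z.1⁻¹ := Subtype.ext h9.symm
        rw [hφ, h10, map_mul, map_mul, map_inv, mul_comm (f z.1), mul_assoc (f y.1), mul_inv_cancel, mul_one, hsqv]
      · have h1 : ∀ a : A, a = 1 := fun a => Subtype.ext ((Subgroup.eq_bot_iff_forall _).1 ht _ a.2)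
        rw [hφ, h1 y.1, h1 y.2, map_one, mul_one]
  · rw [Subgroup.index_map, (MonoidHom.ker_eq_bot_iff ψ).2 hinj, sup_bot_eq, hrange, hi, Subgroup.index_ker,
      MonoidHom.range_eq_top.2 hφs, Subgroup.card_top, pow_succ]
    have h1 : Nat.card (Multiplicative (Fin n → ZMod 2)) = 2 ^ n := by
      rw [Nat.card_congr (Multiplicative.toAdd), Nat.card_fun, Nat.card_zmod, Nat.card_fin]
    rw [h1]

/-! ### `D3` -/

theorem D3.of_sylow {G : Type u} [Group G] [Finite G] (Q : Sylow 2 G) (h : Rk 3 Q) : D3 G := by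
  have : Fact (Nat.Prime 2) := ⟨Nat.prime_two⟩
  intro P
  exact Rk.congr (Sylow.equiv P Q) h

/-- a 2-subgroup of odd index -/
theorem D3.of_subgroup {G : Type u} [Group G] [Finite G] (P : Subgroup G) (hP : IsPGroup 2 P) (hi : ¬ 2 ∣ P.index)
    (h : Rk 3 P) : D3 G :=
  H38.K547.d3_of_card P hP hi h

theorem D3.of_map {G : Type u} {Y : Type v} [Group G] [Finite G] [Group Y] (M : Subgroup G) (hM : ¬ 2 ∣ M.index)
    (f : M →* Y) (hf : Function.Surjective f) (hY : D3 Y) : D3 G :=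
  H38.K547.d3_of_map M hM f hf hY

theorem D3.congr {G : Type u} {Y : Type v} [Group G] [Finite G] [Group Y] (e : G ≃* Y) (hY : D3 Y) : D3 G :=
  H38.K547.d3_congr e hY

theorem D3.of_surj {G : Type u} {Y : Type v} [Group G] [Finite G] [Group Y] (f : G →* Y) (hf : Function.Surjective f)
    (hY : D3 Y) : D3 G := by
  intro P
  have : Fact (Nat.Prime 2) := ⟨Nat.prime_two⟩
  have h1 : Rk 3 ((P.mapSurjective hf : Sylow 2 Y) : Subgroup Y) := hY _
  exact Rk.of_surj (f.subgroupMap (P : Subgroup G)) (f.subgroupMap_surjective _) h1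

theorem D3.of_index {G : Type u} [Group G] [Finite G] (M : Subgroup G) (hM : ¬ 2 ∣ M.index) (h : D3 M) : D3 G :=
  D3.of_map M hM (MonoidHom.id M) Function.surjective_id h

theorem D3.to_index {G : Type u} [Group G] [Finite G] (M : Subgroup G) (hM : ¬ 2 ∣ M.index) (h : D3 G) : D3 M := by
  have : Fact (Nat.Prime 2) := ⟨Nat.prime_two⟩
  intro P
  let P' : Subgroup G := (P : Subgroup M).map M.subtype
  have e : (P : Subgroup M) ≃* P' := (P : Subgroup M).equivMapOfInjective M.subtype M.subtype_injective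
  have hP' : IsPGroup 2 P' := P.isPGroup'.map _
  have hi : ¬ 2 ∣ P'.index := by
    intro hcon
    have h1 : P'.index = (P : Subgroup M).index * M.index := by
      rw [Subgroup.index_map, (MonoidHom.ker_eq_bot_iff M.subtype).2 M.subtype_injective, sup_bot_eq,
        Subgroup.range_subtype]
    rw [h1] at hcon
    rcases (Nat.Prime.dvd_mul Nat.prime_two).1 hcon with h2 | h2
    · exact P.not_dvd_index h2
    · exact hM h2
  let Q : Sylow 2 G := hP'.toSylow hi
  have h1 : Rk 3 (Q : Subgroup G) := h Q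
  exact Rk.congr e h1

theorem D3.index_iff {G : Type u} [Group G] [Finite G] (M : Subgroup G) (hM : ¬ 2 ∣ M.index) : D3 M ↔ D3 G :=
  ⟨D3.of_index M hM, D3.to_index M hM⟩

/-- `M = V : K` of odd index, `V ≠ 1` a 2-group, the Sylow 2-subgroups of `K` need two generators -/
theorem D3.of_split {G : Type u} [Group G] [Finite G] (M : Subgroup G) (hM : ¬ 2 ∣ M.index) (V K : Subgroup M)
    [hV0 : V.Normal] (hV : IsPGroup 2 V) (hV1 : V ≠ ⊥) (hc : Subgroup.IsComplement' V K)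
    (hK : ∀ Q : Sylow 2 K, Rk 2 Q) : D3 G := by
  refine D3.of_index M hM (H753.K547.d3_of_split (V := V) (K := K) ?_ hV hV1 hc.disjoint ?_ default (hK _))
  · rw [Subgroup.normalizer_eq_top]
    exact le_top
  · rw [hc.sup_eq_top, Subgroup.index_top]
    decide

theorem D3.of_elementary {G : Type u} [Group G] [Finite G]
    (h : ∀ (P : Sylow 2 G) (x : (P : Subgroup G)), x ^ 2 ∈ commutator (P : Subgroup G)) (E : Subgroup G)
    (hE : Nat.card E = 8) (hE2 : ∀ x ∈ E, x ^ 2 = 1) : D3 G :=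
  H269.K547.d3_quot (MonoidHom.id G) Function.surjective_id h E hE hE2

theorem D3.of_elementary_quot {G : Type u} {Y : Type v} [Group G] [Finite G] [Group Y] (f : G →* Y)
    (hf : Function.Surjective f)
    (h : ∀ (P : Sylow 2 G) (x : (P : Subgroup G)), x ^ 2 ∈ commutator (P : Subgroup G)) (E : Subgroup Y)
    (hE : Nat.card E = 8) (hE2 : ∀ x ∈ E, x ^ 2 = 1) : D3 Y :=
  H269.K547.d3_quot f hf h E hE hE2

end Cfsg.Agent.H821.K547
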