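import Cfsg.Agent.H821.K547.Defs
import Cfsg.Agent.H777.PGrp
import Mathlib.GroupTheory.Perm.Sign
import Mathlib.GroupTheory.GroupAction.ConjAct
import Mathlib.GroupTheory.SpecificGroups.Quaternion

/-!
# S4547: a homomorphism onto `C₂` from commuting conjugates (helper821)

* `exists_hom` : `P` a finite 2-group, `Q ≤ P` nonabelian with center of order 2, every `t : P` normalises `Q` or
  `Q ^ t` commutes with `Q` elementwise: there is `l : P →* ℤˣ` with `l x = -1` for some `x ∈ Q`;
* `rk_of_commuting` : the version for a subgroup `L` of a subgroup `M` of odd index and `F : M ->> Y`.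
-/

set_option autoImplicit false

namespace Cfsg.Agent.H821.K547

open Subgroup

universe u v

/-- the sign of a conjugation action -/
theorem exists_sign {P : Type u} [Group P] [Finite P] (r r' x : P) (hne : r' ≠ r) (h1 : x * r * x⁻¹ = r')
    (h2 : x * r' * x⁻¹ = r)
    (h : ∀ t : P, t * r * t⁻¹ = r ∨ t * r * t⁻¹ = r' ∨ x * (t * r * t⁻¹) * x⁻¹ = t * r * t⁻¹) :
    ∃ l : P →* ℤˣ, l x = -1 := by
  classical
  have : Finite (ConjAct P) := inferInstanceAs (Finite P)
  have : Fintype (MulAction.orbit (ConjAct P) r) := Fintype.ofFinite _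
  let f : P →* Equiv.Perm (MulAction.orbit (ConjAct P) r) :=
    (MulAction.toPermHom (ConjAct P) (MulAction.orbit (ConjAct P) r)).comp (ConjAct.toConjAct (G := P)).toMonoidHom
  let a : MulAction.orbit (ConjAct P) r := ⟨r, MulAction.mem_orbit_self r⟩
  let b : MulAction.orbit (ConjAct P) r := ⟨r', ⟨ConjAct.toConjAct x, by rw [← h1]; rfl⟩⟩
  have hf : ∀ (g : P) (y : MulAction.orbit (ConjAct P) r), ((f g y : MulAction.orbit (ConjAct P) r) : P) = g * y * g⁻¹ :=
    fun g y => rfl
  have hswap : f x = Equiv.swap a b := by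
    ext y
    rw [hf]
    obtain ⟨y, t, ht⟩ := y
    have ht' : ConjAct.ofConjAct t * r * (ConjAct.ofConjAct t)⁻¹ = y := ht
    by_cases hya : y = r
    · have : (⟨y, ⟨t, ht⟩⟩ : MulAction.orbit (ConjAct P) r) = a := Subtype.ext hya
      rw [this, Equiv.swap_apply_left]
      exact h1
    by_cases hyb : y = r'
    · have : (⟨y, ⟨t, ht⟩⟩ : MulAction.orbit (ConjAct P) r) = b := Subtype.ext hyb
      rw [this, Equiv.swap_apply_right]
      exact h2
    rw [Equiv.swap_apply_of_ne_of_ne (fun h => hya (congrArg Subtype.val h)) (fun h => hyb (congrArg Subtype.val h))]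
    rcases h (ConjAct.ofConjAct t) with h3 | h3 | h3
    · exact absurd (ht'.symm.trans h3) hya
    · exact absurd (ht'.symm.trans h3) hyb
    · rw [ht'] at h3
      exact h3
  refine ⟨Equiv.Perm.sign.comp f, ?_⟩
  rw [MonoidHom.comp_apply, hswap, Equiv.Perm.sign_swap]
  intro hab
  exact hne (congrArg Subtype.val hab).symm

/-- a noncentral element fixed modulo the center -/
theorem exists_fixed_mod {H : Type u} [Group H] [Finite H] (hH : IsPGroup 2 H) (Q Z : Subgroup H) [hQ : Q.Normal]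
    [Z.Normal] (hlt : ∃ q ∈ Q, q ∉ Z) : ∃ r ∈ Q, r ∉ Z ∧ ∀ h : H, h * r * h⁻¹ * r⁻¹ ∈ Z := by
  obtain ⟨q, hq, hqZ⟩ := hlt
  have hP : IsPGroup 2 (H ⧸ Z) := hH.to_quotient Z
  have hN : Q.map (QuotientGroup.mk' Z) ≠ ⊥ := by
    intro h0
    have h1 : QuotientGroup.mk' Z q ∈ Q.map (QuotientGroup.mk' Z) := mem_map_of_mem _ hq
    rw [h0, mem_bot] at h1
    exact hqZ ((QuotientGroup.eq_one_iff q).1 h1)
  have hn : (Q.map (QuotientGroup.mk' Z)).Normal := hQ.map _ (QuotientGroup.mk'_surjective Z)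
  obtain ⟨b, hb, hb1, hbc⟩ := Cfsg.Agent.H777.PGrp.inf_center_ne_bot hP hN hn
  obtain ⟨r, hr, rfl⟩ := hb
  refine ⟨r, hr, fun h => hb1 ((QuotientGroup.eq_one_iff r).2 h), fun h => ?_⟩
  have h3 := hbc (QuotientGroup.mk' Z h)
  rw [← QuotientGroup.eq_one_iff]
  have h4 : (QuotientGroup.mk' Z) (h * r * h⁻¹ * r⁻¹) = 1 := by
    rw [map_mul, map_mul, map_mul, h3, map_inv, map_inv]
    group
  exact h4

/-- **The extra homomorphism.** -/
theorem exists_hom {P : Type u} [Group P] [Finite P] (hP : IsPGroup 2 P) (Q : Subgroup P)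
    (hna : ∃ a ∈ Q, ∃ b ∈ Q, a * b ≠ b * a)
    (hZ : ∀ a ∈ Q, ∀ b ∈ Q, (∀ q ∈ Q, q * a = a * q) → (∀ q ∈ Q, q * b = b * q) → a ≠ 1 → b ≠ 1 → a = b)
    (hc : ∀ t : P, (∀ q ∈ Q, t * q * t⁻¹ ∈ Q) ∨ ∀ a ∈ Q, ∀ b ∈ Q, a * (t * b * t⁻¹) = t * b * t⁻¹ * a) :
    ∃ l : P →* ℤˣ, ∃ x ∈ Q, l x = -1 := by
  classical
  set H : Subgroup P := normalizer (Q : Set P) with hHdef
  have hQH : Q ≤ H := le_normalizer
  have hHP : IsPGroup 2 H := hP.to_subgroup H
  let Z : Subgroup P := Q ⊓ centralizer (Q : Set P)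
  have hZmem : ∀ a, a ∈ Z ↔ a ∈ Q ∧ ∀ q ∈ Q, q * a = a * q := by
    intro a
    simp only [Z, mem_inf, mem_centralizer_iff, SetLike.mem_coe]
  have hnQ : (Q.subgroupOf H).Normal := by
    rw [hHdef]
    exact normal_in_normalizer
  have hmemH : ∀ t ∈ H, ∀ q, q ∈ Q ↔ t * q * t⁻¹ ∈ Q := fun t ht q => mem_normalizer_iff.1 ht q
  have hnZ : (Z.subgroupOf H).Normal := by
    refine ⟨fun a ha t => ?_⟩
    rw [mem_subgroupOf, hZmem] at ha ⊢
    refine ⟨(hmemH t t.2 a).1 ha.1, fun q hq => ?_⟩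
    have hq' : (t : P)⁻¹ * q * t ∈ Q := by
      have := (hmemH _ (H.inv_mem t.2) q).1 hq
      rwa [inv_inv] at this
    have h3 := ha.2 _ hq'
    have h4 : q * ((t : P) * a * (t : P)⁻¹) = (t : P) * (((t : P)⁻¹ * q * t) * a) * (t : P)⁻¹ := by group
    have h5 : (t : P) * a * (t : P)⁻¹ * q = (t : P) * (a * ((t : P)⁻¹ * q * t)) * (t : P)⁻¹ := by group
    push_cast
    rw [h4, h5, h3]
  obtain ⟨a, ha, b, hb, hab⟩ := hna
  obtain ⟨r, hr, hrZ, hrc⟩ := exists_fixed_mod hHP (Q.subgroupOf H) (Z.subgroupOf H)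
    ⟨⟨b, hQH hb⟩, hb, fun h => hab (((hZmem b).1 h).2 a ha)⟩
  rw [mem_subgroupOf] at hr hrZ
  have hx : ∃ x ∈ Q, x * (r : P) ≠ r * x := by
    by_contra hcon
    push Not at hcon
    exact hrZ ((hZmem _).2 ⟨hr, hcon⟩)
  obtain ⟨x, hxQ, hxr⟩ := hx
  have hfix : ∀ t ∈ H, t * (r : P) * t⁻¹ * (r : P)⁻¹ ∈ Z := fun t ht => hrc ⟨t, ht⟩
  set z : P := x * r * x⁻¹ * (r : P)⁻¹ with hz
  have hzZ : z ∈ Z := hfix x (hQH hxQ)
  have hz1 : z ≠ 1 := by
    intro h0
    apply hxr
    rw [hz, mul_inv_eq_one, mul_inv_eq_iff_eq_mul] at h0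
    exact h0
  obtain ⟨hzQ, hzc⟩ := (hZmem z).1 hzZ
  have hzz : z * z = 1 := by
    by_contra h0
    have h3 := hZ (z * z) (Q.mul_mem hzQ hzQ) z hzQ (fun q hq => by
        calc q * (z * z) = q * z * z := (mul_assoc q z z).symm
          _ = z * q * z := by rw [hzc q hq]
          _ = z * (q * z) := mul_assoc z q z
          _ = z * (z * q) := by rw [hzc q hq]
          _ = z * z * q := (mul_assoc z z q).symm)
      hzc h0 hz1
    exact hz1 (mul_eq_left.1 h3)
  have hxr' : x * (r : P) * x⁻¹ = z * r := by rw [hz]; group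
  obtain ⟨l, hl⟩ := exists_sign (r : P) (z * r) x (fun h => hz1 (mul_eq_right.1 h)) hxr'
    (by
      have h3 : x * (z * (r : P)) * x⁻¹ = z * (x * r * x⁻¹) := by
        rw [← mul_assoc x z, hzc x hxQ]
        group
      rw [h3, hxr', ← mul_assoc, hzz, one_mul])
    (by
      intro t
      rcases hc t with h3 | h3
      · have ht : t ∈ H := by
          rw [hHdef]
          rw [mem_normalizer_iff]
          intro q
          refine ⟨h3 q, fun hq => ?_⟩
          let φ : Q → Q := fun q => ⟨t * q * t⁻¹, h3 q q.2⟩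
          have hinj : Function.Injective φ := by
            intro q1 q2 h12
            have := congrArg Subtype.val h12
            simp only [φ] at this
            exact Subtype.ext (mul_left_cancel (mul_right_cancel this))
          obtain ⟨q', hq'⟩ := Finite.surjective_of_injective hinj ⟨_, hq⟩
          have h4 := congrArg Subtype.val hq'
          simp only [φ] at h4
          rw [← mul_left_cancel (mul_right_cancel h4)]
          exact q'.2
        have h4 := hfix t ht
        by_cases h5 : t * (r : P) * t⁻¹ * (r : P)⁻¹ = 1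
        · left
          rwa [mul_inv_eq_one] at h5
        · right; left
          obtain ⟨h6, h7⟩ := (hZmem _).1 h4
          rw [← hZ _ h6 z hzQ h7 hzc h5 hz1]
          group
      · right; right
        rw [h3 x hxQ r hr]
        group)
  exact ⟨l, x, hxQ, hl⟩

/-- rank `n + 1` from rank `n` and one more homomorphism -/
theorem rk_succ {P : Type u} [Group P] {n : ℕ} (f : P →* Multiplicative (Fin n → ZMod 2)) (hf : Function.Surjective f)
    (l : P →* ℤˣ) (x : P) (hx : f x = 1) (hl : l x = -1) : Rk (n + 1) P := by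
  classical
  let c : ℤˣ → ZMod 2 := fun s => if s = 1 then 0 else 1
  have hc : ∀ s t : ℤˣ, c (s * t) = c s + c t := by decide
  let g : P →* Multiplicative (Fin (n + 1) → ZMod 2) :=
    { toFun := fun y => Multiplicative.ofAdd (Fin.cons (c (l y)) (Multiplicative.toAdd (f y)))
      map_one' := by
        rw [map_one, map_one]
        apply Multiplicative.toAdd.injective
        funext i
        refine Fin.cases ?_ (fun j => ?_) i
        · simp [c]
        · simp
      map_mul' := fun y z => by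
        apply Multiplicative.toAdd.injective
        funext i
        refine Fin.cases ?_ (fun j => ?_) i
        · simp [hc]
        · simp }
  refine ⟨g, fun w => ?_⟩
  obtain ⟨y, hy⟩ := hf (Multiplicative.ofAdd (Fin.tail (Multiplicative.toAdd w)))
  have hcases : ∀ a b : ZMod 2, a = b ∨ a + 1 = b := by decide
  rcases hcases (c (l y)) (Multiplicative.toAdd w 0) with h | h
  · refine ⟨y, ?_⟩
    apply Multiplicative.toAdd.injective
    funext i
    refine Fin.cases ?_ (fun j => ?_) i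
    · simpa [g] using h
    · simp [g, hy, Fin.tail]
  · refine ⟨y * x, ?_⟩
    apply Multiplicative.toAdd.injective
    funext i
    refine Fin.cases ?_ (fun j => ?_) i
    · have h1 : c (l (y * x)) = c (l y) + 1 := by
        rw [map_mul, hc, hl]
        congr 1
      exact h1.trans h
    · simp [g, hy, hx, Fin.tail]

/-- **Commuting conjugates.** `M` of odd index in `G`, `L ≤ M` such that every `t ∈ M` normalises `L` or `[L, L ^ t] = 1`,
the Sylow 2-subgroups of `L` are nonabelian with center of order 2, `F : M ->> Y` is trivial on `L`. -/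
theorem rk_of_commuting {G : Type u} {Y : Type v} [Group G] [Finite G] [Group Y] [Finite Y] {n : ℕ} (M L : Subgroup G)
    (hM : ¬ 2 ∣ M.index) (hL : L ≤ M)
    (hc : ∀ t ∈ M, (∀ a ∈ L, t * a * t⁻¹ ∈ L) ∨ ∀ a ∈ L, ∀ b ∈ L, a * (t * b * t⁻¹) = t * b * t⁻¹ * a)
    (Q : Sylow 2 L) (hna : ∃ a b : Q, a * b ≠ b * a)
    (hZ : ∀ a b : Q, (∀ q : Q, q * a = a * q) → (∀ q : Q, q * b = b * q) → a ≠ 1 → b ≠ 1 → a = b)
    (F : M →* Y) (hF : Function.Surjective F) (hLF : ∀ a (h : a ∈ L), F ⟨a, hL h⟩ = 1)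
    (hY : ∀ R : Sylow 2 Y, Rk n R) (P : Sylow 2 G) : Rk (n + 1) P := by
  classical
  have : Fact (Nat.Prime 2) := ⟨Nat.prime_two⟩
  -- the Sylow subgroup of `L` inside `M`
  let i : L →* M := Subgroup.inclusion hL
  have hi : Function.Injective i := Subgroup.inclusion_injective hL
  have hQ1 : IsPGroup 2 ((Q : Subgroup L).map i) := Q.isPGroup'.map i
  obtain ⟨P1, hP1⟩ := hQ1.exists_le_sylow
  -- the intersection with `L` is `Q`
  have hint : ∀ a (h : a ∈ L), (⟨a, hL h⟩ : M) ∈ P1 → (⟨a, h⟩ : L) ∈ Q := by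
    have h1 : IsPGroup 2 ((P1 : Subgroup M).comap i) := P1.isPGroup'.comap_of_injective i hi
    have h2 : (Q : Subgroup L) ≤ (P1 : Subgroup M).comap i := by
      rw [← map_le_iff_le_comap]
      exact hP1
    have h3 := Q.is_maximal' h1 h2
    intro a h ha
    have : (⟨a, h⟩ : L) ∈ (P1 : Subgroup M).comap i := ha
    rw [h3] at this
    exact this
  have hint' : ∀ a : L, a ∈ Q → i a ∈ P1 := fun a ha => hP1 (mem_map_of_mem i ha)
  -- the extra homomorphism
  let Q' : Subgroup P1 := (L.subgroupOf M).subgroupOf (P1 : Subgroup M)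
  have hQ' : ∀ a : P1, a ∈ Q' ↔ ((a : M) : G) ∈ L := fun a => Iff.rfl
  have hQ'Q : ∀ a : P1, a ∈ Q' → ∀ h : ((a : M) : G) ∈ L, (⟨((a : M) : G), h⟩ : L) ∈ Q := fun a ha h => hint _ h a.2
  obtain ⟨l, x, hxQ, hlx⟩ := exists_hom P1.isPGroup' Q'
    (by
      obtain ⟨a, b, hab⟩ := hna
      refine ⟨⟨i a, hint' a a.2⟩, (hQ' _).2 a.1.2, ⟨i b, hint' b b.2⟩, (hQ' _).2 b.1.2, fun h => hab ?_⟩
      have h1 := congrArg (fun y : P1 => ((y : M) : G)) h
      exact Subtype.ext (Subtype.ext h1))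
    (by
      intro a ha b hb hca hcb ha1 hb1
      have haL := (hQ' a).1 ha
      have hbL := (hQ' b).1 hb
      have key : ∀ (c : P1) (hcL : ((c : M) : G) ∈ L), c ∈ Q' → (∀ q ∈ Q', q * c = c * q) →
          ∀ q : Q, q * (⟨⟨((c : M) : G), hcL⟩, hint _ hcL c.2⟩ : Q) = ⟨⟨((c : M) : G), hcL⟩, hint _ hcL c.2⟩ * q := by
        intro c hcL hc' hcc q
        have h1 := hcc ⟨i q, hint' q q.2⟩ ((hQ' _).2 q.1.2)
        have h2 := congrArg (fun y : P1 => ((y : M) : G)) h1
        exact Subtype.ext (Subtype.ext h2)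
      have h1 := hZ ⟨⟨((a : M) : G), haL⟩, hint _ haL a.2⟩ ⟨⟨((b : M) : G), hbL⟩, hint _ hbL b.2⟩
        (key a haL ha hca) (key b hbL hb hcb)
        (fun h => ha1 (Subtype.ext (Subtype.ext (congrArg (fun y : Q => ((y : L) : G)) h))))
        (fun h => hb1 (Subtype.ext (Subtype.ext (congrArg (fun y : Q => ((y : L) : G)) h))))
      exact Subtype.ext (Subtype.ext (congrArg (fun y : Q => ((y : L) : G)) h1)))
    (by
      intro t
      rcases hc ((t : M) : G) (t : M).2 with h | h
      · left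
        intro q hq
        exact (hQ' _).2 (h _ ((hQ' q).1 hq))
      · right
        intro a ha b hb
        exact Subtype.ext (Subtype.ext (h _ ((hQ' a).1 ha) _ ((hQ' b).1 hb))))
  -- the homomorphism from `Y`
  obtain ⟨f, hf⟩ := hY (P1.mapSurjective hF)
  let F1 : P1 →* (P1.mapSurjective hF : Sylow 2 Y) :=
    { toFun := fun y => ⟨F y, mem_map_of_mem F y.2⟩
      map_one' := Subtype.ext (map_one F)
      map_mul' := fun a b => Subtype.ext (map_mul F _ _) }
  have hF1 : Function.Surjective F1 := by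
    rintro ⟨y, ⟨m, hm, hmy⟩⟩
    exact ⟨⟨m, hm⟩, Subtype.ext hmy⟩
  have hrk : Rk (n + 1) P1 := rk_succ (f.comp F1) (hf.comp hF1) l x
    (by
      have h1 : F1 x = 1 := Subtype.ext (hLF _ ((hQ' x).1 hxQ))
      rw [MonoidHom.comp_apply, h1, map_one]) hlx
  -- transport to `G`
  have hcard : Nat.card ((P1 : Subgroup M).map M.subtype) = 2 ^ (Nat.card G).factorization 2 := by
    rw [Nat.card_congr ((P1 : Subgroup M).equivMapOfInjective M.subtype M.subtype_injective).symm.toEquiv,
      P1.card_eq_multiplicity]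
    congr 1
    rw [← M.card_mul_index, Nat.factorization_mul Nat.card_pos.ne' (by
      have := M.index_ne_zero_of_finite
      exact this)]
    rw [Finsupp.add_apply, Nat.factorization_eq_zero_of_not_dvd hM, add_zero]
  let P2 : Sylow 2 G := Sylow.ofCard ((P1 : Subgroup M).map M.subtype) hcard
  let e1 : P1 ≃* P2 := (P1 : Subgroup M).equivMapOfInjective M.subtype M.subtype_injective
  obtain ⟨g, hg⟩ := hrk
  let e : P ≃* P1 := (P.equiv P2).trans e1.symm
  exact ⟨g.comp e.toMonoidHom, hg.comp e.surjective⟩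

/-- `rk_of_commuting` for `D3` -/
theorem d3_of_commuting {G : Type u} {Y : Type v} [Group G] [Finite G] [Group Y] [Finite Y] (M L : Subgroup G)
    (hM : ¬ 2 ∣ M.index) (hL : L ≤ M)
    (hc : ∀ t ∈ M, (∀ a ∈ L, t * a * t⁻¹ ∈ L) ∨ ∀ a ∈ L, ∀ b ∈ L, a * (t * b * t⁻¹) = t * b * t⁻¹ * a)
    (Q : Sylow 2 L) (hna : ∃ a b : Q, a * b ≠ b * a)
    (hZ : ∀ a b : Q, (∀ q : Q, q * a = a * q) → (∀ q : Q, q * b = b * q) → a ≠ 1 → b ≠ 1 → a = b)
    (F : M →* Y) (hF : Function.Surjective F) (hLF : ∀ a (h : a ∈ L), F ⟨a, hL h⟩ = 1)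
    (hY : ∀ R : Sylow 2 Y, Rk 2 R) : D3 G :=
  fun P => rk_of_commuting M L hM hL hc Q hna hZ F hF hLF hY P

/-- the conditions for generalized quaternion groups -/
theorem quaternion_cond {Q : Type u} [Group Q] {n : ℕ} (hn : 2 ≤ n) (e : Q ≃* QuaternionGroup n) :
    (∃ a b : Q, a * b ≠ b * a) ∧
      ∀ a b : Q, (∀ q : Q, q * a = a * q) → (∀ q : Q, q * b = b * q) → a ≠ 1 → b ≠ 1 → a = b := by
  have h1 : (1 : ZMod (2 * n)) + 1 ≠ 0 := by
    intro h
    have h2 : ((2 : ℕ) : ZMod (2 * n)) = 0 := by push_cast; rw [← h]; norm_num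
    rw [ZMod.natCast_eq_zero_iff] at h2
    have := Nat.le_of_dvd (by norm_num) h2
    omega
  have hcen : ∀ c : QuaternionGroup n, (∀ q, q * c = c * q) → c ≠ 1 → c = QuaternionGroup.a (n : ZMod (2 * n)) := by
    intro c hc hc1
    rcases c with i | i
    · have h3 := hc (QuaternionGroup.xa 0)
      rw [QuaternionGroup.xa_mul_a, QuaternionGroup.a_mul_xa] at h3
      have h4 : (0 : ZMod (2 * n)) + i = 0 - i := QuaternionGroup.xa.inj h3
      have h5 : i + i = 0 := by
        have : i + i = (0 + i) + i := by ring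
        rw [this, h4]; ring
      have hi : i ≠ 0 := by
        rintro rfl
        exact hc1 rfl
      have : NeZero (2 * n) := ⟨by omega⟩
      have h6 : 2 * n ∣ i.val + i.val := by
        rw [← ZMod.natCast_eq_zero_iff]
        push_cast
        rw [ZMod.natCast_zmod_val]
        exact h5
      have h7 : i.val < 2 * n := ZMod.val_lt i
      have h8 : i.val ≠ 0 := by
        rwa [Ne, ZMod.val_eq_zero]
      have h9 : i.val = n := by
        obtain ⟨k, hk⟩ := h6
        have hk1 : k = 1 := by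
          rcases k with _ | _ | k
          · omega
          · rfl
          · exfalso
            have : 2 * n * (k + 1 + 1) = 2 * n * k + 2 * (2 * n) := by ring
            have h10 : 0 ≤ 2 * n * k := Nat.zero_le _
            omega
        rw [hk1] at hk
        omega
      rw [← ZMod.natCast_zmod_val i, h9]
    · exfalso
      have h3 := hc (QuaternionGroup.a 1)
      rw [QuaternionGroup.a_mul_xa, QuaternionGroup.xa_mul_a] at h3
      have h4 : i - 1 = i + 1 := QuaternionGroup.xa.inj h3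
      apply h1
      have : (1 : ZMod (2 * n)) + 1 = (i + 1) - (i - 1) := by ring
      rw [this, h4]
      ring
  constructor
  · refine ⟨e.symm (QuaternionGroup.a 1), e.symm (QuaternionGroup.xa 0), fun h => ?_⟩
    have h2 := congrArg e h
    rw [map_mul, map_mul, e.apply_symm_apply, e.apply_symm_apply, QuaternionGroup.a_mul_xa,
      QuaternionGroup.xa_mul_a] at h2
    have h4 : (0 : ZMod (2 * n)) - 1 = 0 + 1 := QuaternionGroup.xa.inj h2
    apply h1
    have : (1 : ZMod (2 * n)) + 1 = (0 + 1) - (0 - 1) := by ring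
    rw [this, h4]
    ring
  · intro a b ha hb ha1 hb1
    apply e.injective
    rw [hcen (e a) (fun q => by rw [← e.apply_symm_apply q, ← map_mul, ha, map_mul]) (fun h => ha1 (by simpa using h)),
      hcen (e b) (fun q => by rw [← e.apply_symm_apply q, ← map_mul, hb, map_mul]) (fun h => hb1 (by simpa using h))]

end Cfsg.Agent.H821.K547
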